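import Mathlib
import Cfsg.Prelude.Def_Blocks
import Cfsg.Prelude.Def_Characters
import Cfsg.Prelude.Def_Solvable
import Cfsg.Prelude.Def_CaseTheorems
import Cfsg.Agent.H21.BRMDefs

set_option autoImplicit false
set_option linter.style.haveILetI false
set_option linter.unusedSectionVars false
set_option linter.unusedVariables false

/-!
# Piece S4700-QUOT (helper57, for helper21's S4700 project)

Passing to the quotient by a normal `p'`-subgroup: a Sylow `p`-subgroup of order `p` maps to a
Sylow `p`-subgroup of order `p`, and the number of Sylow `p`-subgroups of the quotient divides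
the number of Sylow `p`-subgroups of the group.
-/

open Cfsg Cfsg.Agent.H21.BR

namespace Cfsg.Agent.H57.BRQ

theorem quot_sylow {G : Type*} [Group G] [Finite G] (p : ℕ) [Fact p.Prime] (K : Subgroup G)
    [K.Normal] (hK : ¬ p ∣ Nat.card K) (P : Sylow p G) (hP : Nat.card (P : Subgroup G) = p) :
    ∃ Q : Sylow p (G ⧸ K), Nat.card (Q : Subgroup (G ⧸ K)) = p ∧
      Nat.card (Sylow p (G ⧸ K)) ∣ Nat.card (Sylow p G) := by
  have hp : p.Prime := Fact.out
  have hπ : Function.Surjective (QuotientGroup.mk' K) := QuotientGroup.mk'_surjective K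
  refine ⟨P.mapSurjective hπ, ?_, ?_⟩
  · have h1 := Sylow.card_eq_multiplicity P
    have h2 := Sylow.card_eq_multiplicity (P.mapSurjective hπ)
    have hcard : Nat.card G = Nat.card (G ⧸ K) * Nat.card K :=
      Subgroup.card_eq_card_quotient_mul_card_subgroup K
    have hfac : (Nat.card G).factorization p = (Nat.card (G ⧸ K)).factorization p := by
      rw [hcard, Nat.factorization_mul Nat.card_pos.ne' Nat.card_pos.ne']
      simp [Nat.factorization_eq_zero_of_not_dvd hK]
    rw [h2, ← hfac, ← h1, hP]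
  · have e1 : Nat.card (Sylow p (G ⧸ K)) = (Subgroup.normalizer
        (((P.mapSurjective hπ : Sylow p (G ⧸ K)) : Subgroup (G ⧸ K)) : Set (G ⧸ K))).index :=
      Sylow.card_eq_index_normalizer _
    have e2 : Nat.card (Sylow p G) =
        (Subgroup.normalizer ((P : Subgroup G) : Set G)).index :=
      Sylow.card_eq_index_normalizer _
    rw [e1, e2, ← Subgroup.index_comap_of_surjective _ hπ]
    apply Subgroup.index_dvd_of_le
    intro n hn
    rw [Subgroup.mem_comap, Subgroup.mem_normalizer_iff]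
    intro y
    have hn' := Subgroup.mem_normalizer_iff.mp hn
    have hcoe : ∀ z : G ⧸ K, z ∈ ((P.mapSurjective hπ : Sylow p (G ⧸ K)) : Subgroup (G ⧸ K)) ↔
        ∃ x ∈ (P : Subgroup G), (QuotientGroup.mk' K) x = z := by
      intro z
      rw [Sylow.coe_mapSurjective, Subgroup.mem_map]
    change y ∈ ((P.mapSurjective hπ : Sylow p (G ⧸ K)) : Subgroup (G ⧸ K)) ↔
      (QuotientGroup.mk' K) n * y * ((QuotientGroup.mk' K) n)⁻¹ ∈
        ((P.mapSurjective hπ : Sylow p (G ⧸ K)) : Subgroup (G ⧸ K))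
    rw [hcoe, hcoe]
    constructor
    · rintro ⟨x, hx, rfl⟩
      exact ⟨n * x * n⁻¹, (hn' x).mp hx, by simp⟩
    · rintro ⟨x, hx, hxe⟩
      refine ⟨n⁻¹ * x * n, ?_, ?_⟩
      · have h0 := (hn' (n⁻¹ * x * n)).mpr
        apply h0
        have h1 : n * (n⁻¹ * x * n) * n⁻¹ = x := by group
        rw [h1]; exact hx
      · rw [map_mul, map_mul, hxe, map_inv]; group

end Cfsg.Agent.H57.BRQ

example : ∀ {G : Type*} [Group G] [Finite G] (p : ℕ) [Fact p.Prime] (K : Subgroup G)
    [K.Normal] (hK : ¬ p ∣ Nat.card K) (P : Sylow p G) (hP : Nat.card (P : Subgroup G) = p),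
    ∃ Q : Sylow p (G ⧸ K), Nat.card (Q : Subgroup (G ⧸ K)) = p ∧
      Nat.card (Sylow p (G ⧸ K)) ∣ Nat.card (Sylow p G) :=
  @Cfsg.Agent.H57.BRQ.quot_sylow
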