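import Mathlib
import Cfsg.Prelude.Def_Blocks
import Cfsg.Prelude.Def_Characters
import Cfsg.Prelude.Def_Solvable
import Cfsg.Prelude.Def_CaseTheorems
import Cfsg.Agent.H21.BRMDefs
import Cfsg.Agent.H29.BRMRSimple

set_option autoImplicit false
set_option linter.style.haveILetI false
set_option linter.unusedSectionVars false
set_option linter.unusedVariables false

/-!
# Piece S4700-RSIMPLE2 (helper57, for helper21's S4700 project)

A perfect finite group with a self-centralizing Sylow `p`-subgroup of order `p` and no
nontrivial normal `p'`-subgroup is simple.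
-/

open Cfsg Cfsg.Agent.H21.BR

namespace Cfsg.Agent.H57.BRQ

theorem simple_of_perfect_core_free {G : Type*} [Group G] [Finite G]
    (hperf : commutator G = ⊤) (p : ℕ) [Fact p.Prime] (P : Sylow p G)
    (hP : Nat.card (P : Subgroup G) = p)
    (hC : Subgroup.centralizer ((P : Subgroup G) : Set G) = (P : Subgroup G))
    (hcore : ∀ N : Subgroup G, N.Normal → ¬ p ∣ Nat.card N → N = ⊥) : IsSimpleGroup G := by
  have hp : p.Prime := Fact.out
  haveI : Nontrivial G := by
    have h1 : 1 < Nat.card G := by
      have h0 := Subgroup.card_le_card_group (P : Subgroup G)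
      rw [hP] at h0
      exact lt_of_lt_of_le hp.one_lt h0
    exact Finite.one_lt_card_iff_nontrivial.mp h1
  refine { exists_pair_ne := exists_pair_ne G, eq_bot_or_eq_top_of_normal := fun K hK => ?_ }
  haveI := hK
  by_cases hpK : p ∣ Nat.card K
  · exact Or.inr (Cfsg.Agent.H29.BRM.eq_top_of_dvd hperf p P hP hC K hpK)
  · exact Or.inl (hcore K hK hpK)

end Cfsg.Agent.H57.BRQ

example : ∀ {G : Type*} [Group G] [Finite G]
    (hperf : commutator G = ⊤) (p : ℕ) [Fact p.Prime] (P : Sylow p G)
    (hP : Nat.card (P : Subgroup G) = p)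
    (hC : Subgroup.centralizer ((P : Subgroup G) : Set G) = (P : Subgroup G))
    (hcore : ∀ N : Subgroup G, N.Normal → ¬ p ∣ Nat.card N → N = ⊥), IsSimpleGroup G :=
  @Cfsg.Agent.H57.BRQ.simple_of_perfect_core_free
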