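import Mathlib
import Cfsg.Prelude.Def_DStar
import Cfsg.Prelude.Def_PLocal

set_option autoImplicit false

namespace Cfsg.Agent.H57

open Subgroup
open scoped commutatorElement

/-- A group generated by a set `X` whose pairwise commutators lie in a subgroup `Z0` commuting with `X`
has nilpotency class at most two. -/
theorem class_two_of_gens {G : Type*} [Group G] (X : Set G) (Z0 : Subgroup G)
    (hZ : ∀ z ∈ Z0, ∀ x ∈ X, x * z = z * x)
    (hX : ∀ x ∈ X, ∀ y ∈ X, ⁅x, y⁆ ∈ Z0) :
    ⁅⁅closure X, closure X⁆, closure X⁆ = ⊥ := by
  have hZK : Z0 ≤ centralizer (closure X : Set G) := by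
    rw [centralizer_closure]
    intro z hz x hx
    exact hZ z hz x hx
  have key : ∀ k1 ∈ closure X, ∀ k2 ∈ closure X, ⁅k1, k2⁆ ∈ Z0 := by
    intro k1 hk1 k2 hk2
    induction hk1, hk2 using closure_induction₂ with
    | mem x y hx hy => exact hX x hx y hy
    | one_left x hx => simp
    | one_right x hx => simp
    | mul_left x y z hx hy hz h1 h2 =>
      rw [commutatorElement_mul_left_eq_conj_mul]
      have h3 : x * ⁅y, z⁆ * x⁻¹ = ⁅y, z⁆ := by
        have := hZK h2 x hx
        rw [this, mul_inv_cancel_right]
      rw [h3]; exact mul_mem h2 h1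
    | mul_right y z x hy hz hx h1 h2 =>
      rw [commutatorElement_mul_right_eq_mul_conj]
      have h3 : ⁅x, y⁆ * y * ⁅x, z⁆ * y⁻¹ = ⁅x, y⁆ * ⁅x, z⁆ := by
        have := hZK h2 y hy
        rw [mul_assoc ⁅x, y⁆, this, mul_assoc, mul_assoc, mul_inv_cancel, mul_one]
      rw [h3]; exact mul_mem h1 h2
    | inv_left x y hx hy h =>
      rw [commutatorElement_inv_left]
      have h' : ⁅y, x⁆ ∈ Z0 := by rw [← commutatorElement_inv]; exact inv_mem h
      have := hZK h' x hx
      rw [mul_assoc, ← this, inv_mul_cancel_left]; exact h'
    | inv_right x y hx hy h =>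
      rw [commutatorElement_inv_right]
      have h' : ⁅y, x⁆ ∈ Z0 := by rw [← commutatorElement_inv]; exact inv_mem h
      have := hZK h' y hy
      rw [mul_assoc, ← this, inv_mul_cancel_left]; exact h'
  have h1 : ⁅closure X, closure X⁆ ≤ Z0 := (commutator_le).mpr key
  exact (commutator_eq_bot_iff_le_centralizer).mpr (h1.trans hZK)

theorem sup_zpowers_eq_closure {G : Type*} [Group G] (A : Subgroup G) (x : G) :
    A ⊔ zpowers x = closure ((A : Set G) ∪ {x}) := by
  rw [Subgroup.closure_union, Subgroup.closure_eq, Subgroup.zpowers_eq_closure]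

/-- In a nilpotent group generated by two members of the `dStarFamily`, everything commutes. -/
theorem comm_of_family_sup_top {T : Type*} [Group T] [Group.IsNilpotent T] (A B : Subgroup T)
    (hAB : A ⊔ B = ⊤) (hA : A ∈ dStarFamily T) (hB : B ∈ dStarFamily T) :
    ∀ x y : T, x * y = y * x := by
  have hZ2 : Subgroup.upperCentralSeries T 2 ≤ center T := by
    intro x hx
    have hx' : ∀ y : T, ⁅x, y⁆ ∈ center T := by
      intro y
      have := (Subgroup.mem_upperCentralSeries_succ_iff (G := T) (n := 1)).mp hx y
      rwa [Subgroup.upperCentralSeries_one] at this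
    have hcent : ∀ C : Subgroup T, C ∈ dStarFamily T → ∀ a ∈ C, a * x = x * a := by
      intro C hC
      apply hC.2 x
      rw [sup_zpowers_eq_closure]
      apply class_two_of_gens _ (center T)
      · intro z hz y _
        exact mem_center_iff.mp hz y
      · have hCc := le_centralizer_iff_isMulCommutative.mpr hC.1
        rintro a (ha | ha) b (hb | hb)
        · have h1 : b * a = a * b := hCc ha b hb
          have : ⁅a, b⁆ = 1 := commutatorElement_eq_one_iff_mul_comm.mpr h1.symm
          rw [this]; exact one_mem _
        · rw [Set.mem_singleton_iff] at hb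
          subst hb
          rw [← commutatorElement_inv]
          exact inv_mem (hx' a)
        · rw [Set.mem_singleton_iff] at ha
          subst ha
          exact hx' b
        · rw [Set.mem_singleton_iff] at ha hb
          subst ha; subst hb
          rw [commutatorElement_self]; exact one_mem _
    rw [mem_center_iff]
    intro g
    have hg : g ∈ A ⊔ B := by rw [hAB]; trivial
    have hle : A ⊔ B ≤ centralizer ({x} : Set T) := by
      refine sup_le ?_ ?_
      · intro a ha
        rw [mem_centralizer_iff]
        intro h hh
        rw [Set.mem_singleton_iff] at hh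
        subst hh
        exact (hcent A hA a ha).symm
      · intro a ha
        rw [mem_centralizer_iff]
        intro h hh
        rw [Set.mem_singleton_iff] at hh
        subst hh
        exact (hcent B hB a ha).symm
    have := hle hg
    rw [mem_centralizer_iff] at this
    exact (this x rfl).symm
  have hall : ∀ n : ℕ, Subgroup.upperCentralSeries T n ≤ center T := by
    intro n
    induction n with
    | zero => rw [Subgroup.upperCentralSeries_zero]; exact bot_le
    | succ n ih =>
      intro x hx
      apply hZ2
      rw [Subgroup.mem_upperCentralSeries_succ_iff]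
      intro y
      rw [Subgroup.upperCentralSeries_one]
      exact ih (Subgroup.mem_upperCentralSeries_succ_iff.mp hx y)
  obtain ⟨n, hn⟩ := (inferInstance : Group.IsNilpotent T).nilpotent'
  have htop : center T = ⊤ := by
    rw [eq_top_iff, ← hn]; exact hall n
  intro x y
  have hx : x ∈ center T := by rw [htop]; trivial
  exact (mem_center_iff.mp hx y).symm

/-- Restriction of a member of the `dStarFamily` to a subgroup containing it. -/
theorem family_subgroupOf {S : Type*} [Group S] (A T : Subgroup S) (hAT : A ≤ T)
    (hA : A ∈ dStarFamily S) : A.subgroupOf T ∈ dStarFamily ↥T := by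
  have hAc := le_centralizer_iff_isMulCommutative.mpr hA.1
  refine ⟨?_, ?_⟩
  · apply le_centralizer_iff_isMulCommutative.mp
    intro x hx y hy
    apply Subtype.ext
    exact hAc hx y hy
  · intro x hx a ha
    apply Subtype.ext
    refine hA.2 (x : S) ?_ (a : S) ha
    have hmap : (A.subgroupOf T ⊔ zpowers x).map T.subtype = A ⊔ zpowers (x : S) := by
      rw [Subgroup.map_sup, map_subgroupOf_eq_of_le hAT, MonoidHom.map_zpowers]
      rfl
    rw [← hmap, ← map_commutator, ← map_commutator, hx, Subgroup.map_bot]

/-- Two members of the `dStarFamily` of a nilpotent group commute elementwise. -/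
theorem family_comm {S : Type*} [Group S] [Group.IsNilpotent S] (A B : Subgroup S)
    (hA : A ∈ dStarFamily S) (hB : B ∈ dStarFamily S) :
    ∀ a ∈ A, ∀ b ∈ B, a * b = b * a := by
  intro a ha b hb
  have hA' := family_subgroupOf A (A ⊔ B) le_sup_left hA
  have hB' := family_subgroupOf B (A ⊔ B) le_sup_right hB
  have htop : A.subgroupOf (A ⊔ B) ⊔ B.subgroupOf (A ⊔ B) = ⊤ := by
    rw [← subgroupOf_sup le_sup_left le_sup_right, subgroupOf_self]
  have := comm_of_family_sup_top _ _ htop hA' hB'
    ⟨a, (le_sup_left : A ≤ A ⊔ B) ha⟩ ⟨b, (le_sup_right : B ≤ A ⊔ B) hb⟩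
  exact congrArg Subtype.val this

/-- `D*(S)` centralizes itself (is abelian), for nilpotent `S`. -/
theorem dStar_le_centralizer {S : Type*} [Group S] [Group.IsNilpotent S] :
    dStar S ≤ centralizer (dStar S : Set S) := by
  unfold dStar
  apply sSup_le
  intro A hA
  rw [le_centralizer_iff]
  apply sSup_le
  intro B hB
  intro b hb a ha
  exact family_comm A B hA hB a ha b hb

/-- `D*(S)` is itself a member of the family (nilpotent `S`). -/
theorem dStar_mem_family {S : Type*} [Group S] [Group.IsNilpotent S] :
    dStar S ∈ dStarFamily S := by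
  refine ⟨le_centralizer_iff_isMulCommutative.mp dStar_le_centralizer, ?_⟩
  intro x hx
  have hle : dStar S ≤ centralizer ({x} : Set S) := by
    unfold dStar
    apply sSup_le
    intro A hA a ha
    rw [mem_centralizer_iff]
    intro y hy
    rw [Set.mem_singleton_iff] at hy
    subst hy
    refine (hA.2 y ?_ a ha).symm
    have hAle : A ⊔ zpowers y ≤ dStar S ⊔ zpowers y := sup_le_sup_right (le_sSup hA) _
    exact le_bot_iff.mp (hx ▸ commutator_mono (commutator_mono hAle hAle) hAle)
  intro a ha
  have := hle ha
  rw [mem_centralizer_iff] at this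
  exact (this x rfl).symm

end Cfsg.Agent.H57
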