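import Mathlib
import Cfsg.Prelude.Def_DStar
import Cfsg.Prelude.Def_PLocal
import Cfsg.Agent.H57.DStar

set_option autoImplicit false

namespace Cfsg.Agent.H57

open Subgroup
open scoped commutatorElement

theorem pCore_isPGroup (p : ℕ) (G : Type*) [Group G] : IsPGroup p ↥(pCore p G) :=
  Sylow.sSup_of_normal _ (fun _ h => h.2) (fun _ h => h.1)

theorem pCore_le_sylow {p : ℕ} {G : Type*} [Group G] (S : Sylow p G) : pCore p G ≤ S :=
  (pCore_isPGroup p G).le_sylow_of_normal S

theorem le_pCore {p : ℕ} {G : Type*} [Group G] (N : Subgroup G) (hN : N.Normal) (hp : IsPGroup p ↥N) :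
    N ≤ pCore p G :=
  le_sSup ⟨hN, hp⟩

/-- The `dStarFamily` is carried to the `dStarFamily` by an isomorphism. -/
theorem family_map_equiv {S S' : Type*} [Group S] [Group S'] (φ : S ≃* S') (A : Subgroup S)
    (hA : A ∈ dStarFamily S) : A.map φ.toMonoidHom ∈ dStarFamily S' := by
  have hAc := le_centralizer_iff_isMulCommutative.mpr hA.1
  refine ⟨?_, ?_⟩
  · apply le_centralizer_iff_isMulCommutative.mp
    rintro _ ⟨a, ha, rfl⟩ _ ⟨b, hb, rfl⟩
    change φ b * φ a = φ a * φ b
    rw [← map_mul, ← map_mul, hAc ha b hb]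
  · intro x' hx'
    have hmap : (A ⊔ zpowers (φ.symm x')).map φ.toMonoidHom = A.map φ.toMonoidHom ⊔ zpowers x' := by
      rw [Subgroup.map_sup, MonoidHom.map_zpowers]
      simp
    rw [← hmap, ← map_commutator, ← map_commutator,
      map_eq_bot_iff_of_injective _ φ.injective] at hx'
    rintro _ ⟨a, ha, rfl⟩
    have := hA.2 (φ.symm x') hx' a ha
    have h2 := congrArg φ this
    simpa using h2

theorem dStar_map_equiv_le {S S' : Type*} [Group S] [Group S'] (φ : S ≃* S') :
    (dStar S).map φ.toMonoidHom ≤ dStar S' := by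
  rw [map_le_iff_le_comap]
  unfold dStar
  apply sSup_le
  intro A hA
  rw [← map_le_iff_le_comap]
  exact le_sSup (family_map_equiv φ A hA)

/-- `D*(P)` (inside `G`) is normalized by `P`. -/
theorem dStarOf_conj_mem {G : Type*} [Group G] (P : Subgroup G) (s : G) (hs : s ∈ P) (d : G)
    (hd : d ∈ dStarOf P) : s * d * s⁻¹ ∈ dStarOf P := by
  obtain ⟨d0, hd0, rfl⟩ := hd
  have := dStar_map_equiv_le (MulAut.conj (⟨s, hs⟩ : ↥P)) (mem_map_of_mem _ hd0)
  refine ⟨_, this, ?_⟩
  simp [MulAut.conj_apply]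

theorem dStarOf_le {G : Type*} [Group G] (P : Subgroup G) : dStarOf P ≤ P :=
  map_subtype_le _

/-- `D*(P)` (inside `G`) is abelian when `P` is nilpotent. -/
theorem dStarOf_le_centralizer {G : Type*} [Group G] (P : Subgroup G) [Group.IsNilpotent ↥P] :
    dStarOf P ≤ centralizer (dStarOf P : Set G) := by
  rintro _ ⟨a, ha, rfl⟩ _ ⟨b, hb, rfl⟩
  have := (dStar_le_centralizer (S := ↥P)) ha b hb
  exact congrArg Subtype.val this

/-- The defining property of the family, for `D*(P)` inside `G`. -/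
theorem dStarOf_comm_of_class_two {G : Type*} [Group G] (P : Subgroup G) [Group.IsNilpotent ↥P]
    (x : G) (hx : x ∈ P)
    (h : ⁅⁅dStarOf P ⊔ zpowers x, dStarOf P ⊔ zpowers x⁆, dStarOf P ⊔ zpowers x⁆ = ⊥) :
    ∀ d ∈ dStarOf P, d * x = x * d := by
  have hmap : (dStar ↥P ⊔ zpowers (⟨x, hx⟩ : ↥P)).map P.subtype = dStarOf P ⊔ zpowers x := by
    rw [Subgroup.map_sup, MonoidHom.map_zpowers]
    rfl
  rw [← hmap, ← map_commutator, ← map_commutator,
    map_eq_bot_iff_of_injective _ P.subtype_injective] at h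
  rintro _ ⟨a, ha, rfl⟩
  have := (dStar_mem_family (S := ↥P)).2 ⟨x, hx⟩ h a ha
  exact congrArg Subtype.val this

/-- A subgroup `W ≤ P` that is abelian and has the family property relative to `P` lies in `D*(P)`. -/
theorem le_dStarOf {G : Type*} [Group G] (P W : Subgroup G) (hWP : W ≤ P)
    (hW : W ≤ centralizer (W : Set G))
    (h : ∀ x ∈ P, ⁅⁅W ⊔ zpowers x, W ⊔ zpowers x⁆, W ⊔ zpowers x⁆ = ⊥ → ∀ w ∈ W, w * x = x * w) :
    W ≤ dStarOf P := by
  have hmem : W.subgroupOf P ∈ dStarFamily ↥P := by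
    refine ⟨?_, ?_⟩
    · apply le_centralizer_iff_isMulCommutative.mp
      intro a ha b hb
      apply Subtype.ext
      exact hW ha b hb
    · intro x hx a ha
      apply Subtype.ext
      refine h (x : G) x.2 ?_ (a : G) ha
      have hmap : (W.subgroupOf P ⊔ zpowers x).map P.subtype = W ⊔ zpowers (x : G) := by
        rw [Subgroup.map_sup, map_subgroupOf_eq_of_le hWP, MonoidHom.map_zpowers]
        rfl
      rw [← hmap, ← map_commutator, ← map_commutator, hx, Subgroup.map_bot]
  have h1 : W.subgroupOf P ≤ dStar ↥P := le_sSup hmem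
  have h2 := Subgroup.map_mono (f := P.subtype) h1
  rwa [map_subgroupOf_eq_of_le hWP] at h2

end Cfsg.Agent.H57
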