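import Mathlib
import Cfsg.Agent.H29.Quad

/-!
# Quadratic action on sections (helper57)

* `pow_mul_of_comm`, `comm_eq_one_of_pow_comm`: coprime-action computations with one element.
* `section_quad`: the section form of helper29's `quad_comm_mem_centralizer`: if `V₁ / V₂` is an
  elementary abelian `p`-section (`p` odd) normalized by a subgroup `L` acting on it as an abelian
  group of exponent prime to `p`, and `x` normalizes everything and acts quadratically on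
  `V₁ / V₂`, then the commutators `[x, a]`, `a ∈ L`, act trivially on `V₁ / V₂`.
-/

set_option autoImplicit false

open scoped commutatorElement

namespace Cfsg.Agent.H57.KQ

variable {G : Type*} [Group G]

theorem pow_mul_of_comm {z v : G} (hc : ⁅z, ⁅z, v⁆⁆ = 1) (k : ℕ) :
    z ^ k * v = ⁅z, v⁆ ^ k * v * z ^ k := by
  set c := ⁅z, v⁆ with hcdef
  have hzc : Commute z c := commutatorElement_eq_one_iff_commute.mp hc
  have hzv : z * v = c * v * z := by rw [hcdef, commutatorElement_def]; group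
  induction k with
  | zero => simp
  | succ k ih =>
    calc z ^ (k + 1) * v = z ^ k * (z * v) := by rw [pow_succ, mul_assoc]
      _ = z ^ k * (c * v * z) := by rw [hzv]
      _ = (z ^ k * c) * v * z := by group
      _ = (c * z ^ k) * v * z := by rw [(hzc.pow_left k).eq]
      _ = c * (z ^ k * v) * z := by group
      _ = c * (c ^ k * v * z ^ k) * z := by rw [ih]
      _ = c ^ (k + 1) * v * z ^ (k + 1) := by rw [pow_succ', pow_succ]; group

/-- If `z` commutes with `[z, v]`, `z ^ r` commutes with `v` with `r` prime to `p`, and `[z, v]`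
is a `p`-element, then `[z, v] = 1`. -/
theorem comm_eq_one_of_pow_comm {p : ℕ} {z v : G} (hc : ⁅z, ⁅z, v⁆⁆ = 1)
    (r : ℕ) (hr : r.Coprime p) (hzr : z ^ r * v = v * z ^ r) (j : ℕ)
    (hj : ⁅z, v⁆ ^ (p ^ j) = 1) : ⁅z, v⁆ = 1 := by
  have h1 := pow_mul_of_comm hc r
  have h2 : ⁅z, v⁆ ^ r = 1 := by
    have h3 : ⁅z, v⁆ ^ r * (v * z ^ r) = 1 * (v * z ^ r) := by
      rw [one_mul, ← mul_assoc, ← h1, hzr]
    exact mul_right_cancel h3
  have h3 : orderOf ⁅z, v⁆ ∣ r := orderOf_dvd_of_pow_eq_one h2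
  have h4 : orderOf ⁅z, v⁆ ∣ p ^ j := orderOf_dvd_of_pow_eq_one hj
  have h5 : orderOf ⁅z, v⁆ = 1 := Nat.eq_one_of_dvd_coprimes (Nat.Coprime.pow_right j hr) h3 h4
  exact orderOf_eq_one_iff.mp h5

/-- Quadratic action on an elementary abelian section `V₁ / V₂`. -/
theorem section_quad [Finite G] {p : ℕ} [Fact p.Prime] (hp : p ≠ 2)
    (V₁ V₂ : Subgroup G) (h21 : V₂ ≤ V₁)
    (hab : ∀ v ∈ V₁, ∀ w ∈ V₁, ⁅v, w⁆ ∈ V₂)
    (hexp : ∀ v ∈ V₁, v ^ p ∈ V₂)
    (L : Subgroup G) (hL1 : L ≤ Subgroup.normalizer (V₁ : Set G))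
    (hL2 : L ≤ Subgroup.normalizer (V₂ : Set G))
    (hLc : ∀ a ∈ L, ∀ b ∈ L, ∀ v ∈ V₁, ⁅⁅a, b⁆, v⁆ ∈ V₂)
    (m : ℕ) (hm : m.Coprime p) (hLm : ∀ a ∈ L, ∀ v ∈ V₁, ⁅a ^ m, v⁆ ∈ V₂)
    (x : G) (hx1 : x ∈ Subgroup.normalizer (V₁ : Set G))
    (hx2 : x ∈ Subgroup.normalizer (V₂ : Set G))
    (hxL : ∀ a ∈ L, x * a * x⁻¹ ∈ L) (hxL' : ∀ a ∈ L, x⁻¹ * a * x ∈ L)
    (hq : ∀ v ∈ V₁, ⁅x, ⁅x, v⁆⁆ ∈ V₂) :
    ∀ a ∈ L, ∀ v ∈ V₁, ⁅⁅x, a⁆, v⁆ ∈ V₂ := by
  set Γ := Subgroup.normalizer (V₁ : Set G) ⊓ Subgroup.normalizer (V₂ : Set G) with hΓ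
  have hLΓ : L ≤ Γ := le_inf hL1 hL2
  have hxΓ : x ∈ Γ := ⟨hx1, hx2⟩
  have hV1Γ : V₁ ≤ Γ := by
    refine le_inf Subgroup.le_normalizer ?_
    intro v hv
    rw [Subgroup.mem_normalizer_iff]
    intro w
    constructor
    · intro hw
      have e : v * w * v⁻¹ = ⁅v, w⁆ * w := by simp [commutatorElement_def]
      rw [e]; exact mul_mem (hab v hv w (h21 hw)) hw
    · intro hw
      have e : w = ⁅v⁻¹, v * w * v⁻¹⁆ * (v * w * v⁻¹) := by
        simp only [commutatorElement_def]; group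
      rw [e]
      exact mul_mem (hab _ (inv_mem hv) _
        (mul_mem (mul_mem hv (by
          have e2 : w = v⁻¹ * (v * w * v⁻¹) * v := by group
          rw [e2]
          exact mul_mem (mul_mem (inv_mem hv) (h21 hw)) hv)) (inv_mem hv))) hw
  haveI hN2 : (V₂.subgroupOf Γ).Normal := Subgroup.normal_subgroupOf_of_le_normalizer inf_le_right
  haveI hN1 : (V₁.subgroupOf Γ).Normal := Subgroup.normal_subgroupOf_of_le_normalizer inf_le_left
  set π := QuotientGroup.mk' (V₂.subgroupOf Γ) with hπ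
  have hker : ∀ g : ↥Γ, π g = 1 ↔ (g : G) ∈ V₂ := fun g => by
    rw [hπ, QuotientGroup.mk'_apply, QuotientGroup.eq_one_iff, Subgroup.mem_subgroupOf]
  have hcomm : ∀ a b : ↥Γ, (π a * π b = π b * π a) ↔ ⁅(a : G), (b : G)⁆ ∈ V₂ := by
    intro a b
    rw [← commutatorElement_eq_one_iff_mul_comm, ← map_commutatorElement, hker]
    rfl
  set W := (V₁.subgroupOf Γ).map π with hW
  have hWn : W.Normal := hN1.map π (QuotientGroup.mk'_surjective _)
  have hWc : IsMulCommutative W := by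
    refine ⟨⟨fun a b => Subtype.ext ?_⟩⟩
    obtain ⟨v, hv, hva⟩ := a.2
    obtain ⟨w, hw, hwb⟩ := b.2
    rw [Subgroup.coe_mul, Subgroup.coe_mul, ← hva, ← hwb]
    exact (hcomm v w).mpr (hab _ (Subgroup.mem_subgroupOf.mp hv) _ (Subgroup.mem_subgroupOf.mp hw))
  have hWp : ∀ w ∈ W, w ^ p = 1 := by
    rintro _ ⟨v, hv, rfl⟩
    rw [← map_pow, hker]
    exact hexp _ (Subgroup.mem_subgroupOf.mp hv)
  set Y := (L.subgroupOf Γ).map π with hY
  have key := Cfsg.Agent.H29.quad_comm_mem_centralizer hp W hWn hWc hWp Y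
    (by
      rintro _ ⟨a, ha, rfl⟩ _ ⟨b, hb, rfl⟩
      rw [Subgroup.mem_centralizer_iff]
      rintro _ ⟨v, hv, rfl⟩
      rw [← map_commutatorElement]
      exact ((hcomm _ _).mpr (hLc _ (Subgroup.mem_subgroupOf.mp ha) _
        (Subgroup.mem_subgroupOf.mp hb) _ (Subgroup.mem_subgroupOf.mp hv))).symm)
    m hm
    (by
      rintro _ ⟨a, ha, rfl⟩
      rw [← map_pow, Subgroup.mem_centralizer_iff]
      rintro _ ⟨v, hv, rfl⟩
      exact ((hcomm _ _).mpr (hLm _ (Subgroup.mem_subgroupOf.mp ha) _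
        (Subgroup.mem_subgroupOf.mp hv))).symm)
    (π ⟨x, hxΓ⟩)
    (by
      rintro _ ⟨a, ha, rfl⟩
      refine ⟨⟨x, hxΓ⟩ * a * ⟨x, hxΓ⟩⁻¹, Subgroup.mem_subgroupOf.mpr ?_, by simp⟩
      exact hxL _ (Subgroup.mem_subgroupOf.mp ha))
    (by
      rintro _ ⟨a, ha, rfl⟩
      refine ⟨⟨x, hxΓ⟩⁻¹ * a * ⟨x, hxΓ⟩, Subgroup.mem_subgroupOf.mpr ?_, by simp⟩
      exact hxL' _ (Subgroup.mem_subgroupOf.mp ha))
    (by
      rintro _ ⟨v, hv, rfl⟩
      rw [← map_commutatorElement, ← map_commutatorElement, hker]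
      exact hq _ (Subgroup.mem_subgroupOf.mp hv))
  intro a ha v hv
  have h1 := key (π ⟨a, hLΓ ha⟩) ⟨⟨a, hLΓ ha⟩, Subgroup.mem_subgroupOf.mpr ha, rfl⟩
  rw [← map_commutatorElement, Subgroup.mem_centralizer_iff] at h1
  have h2 := h1 (π ⟨v, hV1Γ hv⟩) ⟨⟨v, hV1Γ hv⟩, Subgroup.mem_subgroupOf.mpr hv, rfl⟩
  exact (hcomm _ _).mp h2.symm

end Cfsg.Agent.H57.KQ
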