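import Mathlib
import Cfsg.Prelude.Def_Local
import Cfsg.Prelude.Def_Solvable
import Cfsg.Agent.H57.SylowChain
import Cfsg.Agent.H57.SEFactor
import Cfsg.Agent.S1324

set_option autoImplicit false

namespace Cfsg.Agent.H57

open scoped Pointwise

/-- Any two elements of order `p` of `P` generate the same subgroup. -/
def UniqP (p : ℕ) {G : Type*} [Group G] (P : Subgroup G) : Prop :=
  ∀ x ∈ P, ∀ y ∈ P, orderOf x = p → orderOf y = p → Subgroup.zpowers x = Subgroup.zpowers y

/-- A cyclic subgroup has at most one subgroup of order `p`. -/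
theorem uniqP_of_isCyclic {G : Type*} [Group G] [Finite G] (p : ℕ) [Fact p.Prime]
    (P : Subgroup G) (hc : IsCyclic P) : UniqP p P := by
  have hp : p.Prime := Fact.out
  let _ : CommGroup ↥P := IsCyclic.commGroup
  have hK : Nat.card (powMonoidHom p : ↥P →* ↥P).ker ≤ p := by
    rw [IsCyclic.card_powMonoidHom_ker]
    exact Nat.le_of_dvd hp.pos (Nat.gcd_dvd_right _ _)
  have key : ∀ x ∈ P, orderOf x = p →
      Subgroup.zpowers x = ((powMonoidHom p : ↥P →* ↥P).ker).map P.subtype := by
    intro x hx hxo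
    have h1 : Subgroup.zpowers (⟨x, hx⟩ : ↥P) ≤ (powMonoidHom p : ↥P →* ↥P).ker := by
      rw [Subgroup.zpowers_le, MonoidHom.mem_ker]
      apply Subtype.ext
      show x ^ p = 1
      rw [← hxo]; exact pow_orderOf_eq_one x
    have h2 : Subgroup.zpowers (⟨x, hx⟩ : ↥P) = (powMonoidHom p : ↥P →* ↥P).ker := by
      apply Subgroup.eq_of_le_of_card_ge h1
      rw [Nat.card_zpowers, Subgroup.orderOf_mk, hxo]
      exact hK
    rw [← h2, MonoidHom.map_zpowers]
    rfl
  intro x hx y hy hxo hyo
  rw [key x hx hxo, key y hy hyo]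

/-- The quaternion group `Q_{4m}` has a unique element of order `2`. -/
theorem quaternion_orderOf_two {m : ℕ} [NeZero m] (q : QuaternionGroup m) (hq : orderOf q = 2) :
    q = QuaternionGroup.a (m : ZMod (2 * m)) := by
  cases q with
  | a i =>
    have h1 : (QuaternionGroup.a i : QuaternionGroup m) ^ 2 = 1 := by
      rw [← hq]; exact pow_orderOf_eq_one _
    rw [sq, QuaternionGroup.a_mul_a, QuaternionGroup.one_def] at h1
    have h2 : i + i = 0 := by
      injection h1
    have h3 : ((i.val + i.val : ℕ) : ZMod (2 * m)) = 0 := by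
      rw [Nat.cast_add, ZMod.natCast_zmod_val]; exact h2
    rw [ZMod.natCast_eq_zero_iff] at h3
    have hlt : i.val < 2 * m := ZMod.val_lt i
    have hm : 0 < m := Nat.pos_of_ne_zero (NeZero.ne m)
    obtain ⟨c, hc⟩ := h3
    have hc' : i.val = m * c := by
      have : 2 * m * c = 2 * (m * c) := by ring
      omega
    have hc2 : c < 2 := by
      by_contra hcon
      push Not at hcon
      have : m * 2 ≤ m * c := Nat.mul_le_mul_left m hcon
      omega
    interval_cases c
    · have hi : i = 0 := by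
        rw [← ZMod.natCast_zmod_val i, hc']; simp
      subst hi
      rw [← QuaternionGroup.one_def, orderOf_one] at hq
      omega
    · have hi : i = (m : ZMod (2 * m)) := by
        rw [← ZMod.natCast_zmod_val i, hc']; simp
      rw [hi]
  | xa i =>
    rw [QuaternionGroup.orderOf_xa] at hq
    omega

/-- A generalized quaternion subgroup has a unique subgroup of order `2`. -/
theorem uniqP_of_quaternion {G : Type*} [Group G] (P : Subgroup G) (n : ℕ)
    (e : ↥P ≃* QuaternionGroup (2 ^ n)) : UniqP 2 P := by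
  have : NeZero (2 ^ n) := ⟨pow_ne_zero n two_ne_zero⟩
  intro x hx y hy hxo hyo
  have h1 : e ⟨x, hx⟩ = QuaternionGroup.a ((2 ^ n : ℕ) : ZMod (2 * 2 ^ n)) := by
    apply quaternion_orderOf_two
    rw [MulEquiv.orderOf_eq, Subgroup.orderOf_mk, hxo]
  have h2 : e ⟨y, hy⟩ = QuaternionGroup.a ((2 ^ n : ℕ) : ZMod (2 * 2 ^ n)) := by
    apply quaternion_orderOf_two
    rw [MulEquiv.orderOf_eq, Subgroup.orderOf_mk, hyo]
  have h3 : (⟨x, hx⟩ : ↥P) = ⟨y, hy⟩ := e.injective (h1.trans h2.symm)
  have h4 : x = y := congrArg Subtype.val h3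
  rw [h4]

/-- The uniqueness property passes to conjugate Sylow subgroups. -/
theorem uniqP_smul {G : Type*} [Group G] {p : ℕ} (P : Sylow p G)
    (hU : UniqP p (P : Subgroup G)) (g : G) : UniqP p ((g • P : Sylow p G) : Subgroup G) := by
  intro x hx y hy hxo hyo
  rw [mem_smul_sylow] at hx hy
  have hc : ∀ w : G, g⁻¹ * w * g = MulAut.conj g⁻¹ w := by intro w; simp
  have h := hU _ hx _ hy (by rw [hc, MulEquiv.orderOf_eq]; exact hxo)
    (by rw [hc, MulEquiv.orderOf_eq]; exact hyo)
  have hm : ∀ w : G, Subgroup.zpowers w =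
      (Subgroup.zpowers (g⁻¹ * w * g)).map (MulAut.conj g).toMonoidHom := by
    intro w
    rw [MonoidHom.map_zpowers]
    congr 1
    simp [mul_assoc]
  rw [hm x, hm y, h]

/-- If `O_p(G) = 1` and the Sylow `p`-subgroups have a unique subgroup of order `p`, then the
normalizer of a subgroup of order `p` is strongly `p`-embedded in the classical sense. -/
theorem exists_se_of_uniqP {G : Type*} [Group G] [Finite G] (p : ℕ) [Fact p.Prime]
    (hdiv : p ∣ Nat.card G) (hcore : Cfsg.pCore p G = ⊥) (P : Sylow p G)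
    (hU : UniqP p (P : Subgroup G)) :
    ∃ H : Subgroup G, H ≠ ⊤ ∧ p ∣ Nat.card H ∧
      ∀ g : G, g ∉ H → ¬ p ∣ Nat.card ↥(H ⊓ H.map (MulAut.conj g).toMonoidHom) := by
  have hp : p.Prime := Fact.out
  have hU' : ∀ Q : Sylow p G, UniqP p (Q : Subgroup G) := by
    intro Q
    obtain ⟨g, rfl⟩ := MulAction.exists_smul_eq G P Q
    exact uniqP_smul P hU g
  obtain ⟨z, hz⟩ := exists_prime_orderOf_dvd_card' p (P.dvd_card_of_dvd_card hdiv)
  have hzo : orderOf (z : G) = p := by rw [Subgroup.orderOf_coe, hz]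
  have hz1 : (z : G) ≠ 1 := by
    intro h1; rw [h1, orderOf_one] at hzo; exact hp.one_lt.ne hzo
  set Z := Subgroup.zpowers (z : G) with hZ
  have hZp : IsPGroup p Z := by
    apply IsPGroup.of_card (n := 1)
    rw [Nat.card_zpowers, hzo, pow_one]
  have key : ∀ y : G, y ∈ Subgroup.normalizer (Z : Set G) → orderOf y = p →
      Subgroup.zpowers y = Z := by
    intro y hy hyo
    have hyp : IsPGroup p (Subgroup.zpowers y) := by
      apply IsPGroup.of_card (n := 1)
      rw [Nat.card_zpowers, hyo, pow_one]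
    have hT : IsPGroup p ↥(Subgroup.zpowers y ⊔ Z) :=
      hyp.to_sup_of_normal_right' hZp ((Subgroup.zpowers_le).mpr hy)
    obtain ⟨Q, hQ⟩ := hT.exists_le_sylow
    exact hU' Q y (hQ (Subgroup.mem_sup_left (Subgroup.mem_zpowers y))) z
      (hQ (Subgroup.mem_sup_right (Subgroup.mem_zpowers _))) hyo hzo
  refine ⟨Subgroup.normalizer (Z : Set G), ?_, ?_, ?_⟩
  · intro htop
    have hn : Z.Normal := Subgroup.normalizer_eq_top_iff.mp htop
    have hle : Z ≤ Cfsg.pCore p G := le_sSup ⟨hn, hZp⟩
    rw [hcore] at hle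
    exact hz1 ((Subgroup.mem_bot).mp (hle (Subgroup.mem_zpowers _)))
  · have h1 : Nat.card Z = p := by rw [Nat.card_zpowers, hzo]
    have h2 := Subgroup.card_dvd_of_le (Subgroup.le_normalizer (H := Z))
    rw [h1] at h2
    exact h2
  · intro g hg hdvd
    apply hg
    obtain ⟨x, hx⟩ := exists_prime_orderOf_dvd_card' p hdvd
    have hxo : orderOf (x : G) = p := by rw [Subgroup.orderOf_coe, hx]
    have hxH := (Subgroup.mem_inf.mp x.2).1
    obtain ⟨w, hw, hwx⟩ := (Subgroup.mem_inf.mp x.2).2
    have hwo : orderOf w = p := by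
      have : (x : G) = MulAut.conj g w := by rw [← hwx]; rfl
      rw [this, MulEquiv.orderOf_eq] at hxo
      exact hxo
    have h1 := key x hxH hxo
    have h2 := key w hw hwo
    -- `Z.map (conj g) = Z`
    have h3 : Z.map (MulAut.conj g).toMonoidHom = Z := by
      calc Z.map (MulAut.conj g).toMonoidHom
          = (Subgroup.zpowers w).map (MulAut.conj g).toMonoidHom := by rw [h2]
        _ = Subgroup.zpowers ((MulAut.conj g).toMonoidHom w) := MonoidHom.map_zpowers _ _
        _ = Subgroup.zpowers (x : G) := by rw [hwx]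
        _ = Z := h1
    rw [Subgroup.mem_normalizer_iff]
    intro h
    constructor
    · intro hh
      have : g * h * g⁻¹ ∈ Z.map (MulAut.conj g).toMonoidHom := ⟨h, hh, by simp⟩
      rwa [h3] at this
    · intro hh
      rw [← h3] at hh
      obtain ⟨h', hh', heq⟩ := hh
      have : h' = h := by
        have h5 : g * h' * g⁻¹ = g * h * g⁻¹ := by simpa using heq
        have h6 : h' = g⁻¹ * (g * h' * g⁻¹) * g := by group
        rw [h6, h5]; group
      rw [← this]; exact hh'

/-- Classical strong `p`-embedding forces `O_p(G) = 1`. -/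
theorem se_pCore_eq_bot {G : Type*} [Group G] [Finite G] (p : ℕ) [Fact p.Prime]
    (H : Subgroup G) (hH : H ≠ ⊤) (hpH : p ∣ Nat.card H)
    (hse : ∀ g : G, g ∉ H → ¬ p ∣ Nat.card ↥(H ⊓ H.map (MulAut.conj g).toMonoidHom)) :
    Cfsg.pCore p G = ⊥ := by
  by_contra hne
  obtain ⟨S, hSH⟩ := se_exists_sylow_le hpH hse
  have hOp : IsPGroup p ↥(Cfsg.pCore p G) :=
    Sylow.sSup_of_normal _ (fun _ h => h.2) (fun _ h => h.1)
  have hOn : (Cfsg.pCore p G).Normal := Subgroup.sSup_normal _ (fun _ h => h.1)
  have hOS : Cfsg.pCore p G ≤ S := hOp.le_sylow_of_normal S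
  have := se_normalizer_le hse hOp hne (hOS.trans hSH)
  rw [Subgroup.normalizer_eq_top] at this
  exact hH (top_le_iff.mp this)

/-- Classical strong `p`-embedding: a `p'`-subgroup normalized by an elementary abelian
`p`-subgroup `A ≤ H` of order at least `p²` lies in `H`. -/
theorem se_pprime_le_of_rank_two {G : Type*} [Group G] [Finite G] (p : ℕ) [Fact p.Prime]
    (H : Subgroup G)
    (hse : ∀ g : G, g ∉ H → ¬ p ∣ Nat.card ↥(H ⊓ H.map (MulAut.conj g).toMonoidHom))
    (A : Subgroup G) (hAH : A ≤ H) (hAel : Cfsg.IsElementaryAbelian p A)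
    (hA2 : p ^ 2 ≤ Nat.card A) (X : Subgroup G) (hX : ¬ p ∣ Nat.card X)
    (hAX : A ≤ Subgroup.normalizer (X : Set G)) : X ≤ H := by
  have hp : p.Prime := Fact.out
  have hAp : IsPGroup p A := by
    intro a
    refine ⟨1, ?_⟩
    apply Subtype.ext
    simpa using hAel.2 a a.2
  have hgen := Cfsg.Agent.S1324.result p A X hAel hA2 hX hAX
  rw [hgen]
  apply iSup_le
  rintro ⟨B, hBA, hBp⟩
  have hBne : B ≠ ⊥ := by
    rintro rfl
    rw [Subgroup.relIndex_bot_left] at hBp
    have : p < p ^ 2 := by
      have := hp.one_lt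
      nlinarith
    omega
  obtain ⟨⟨e, heB⟩, he⟩ := (Subgroup.ne_bot_iff_exists_ne_one).mp hBne
  have he1 : e ≠ 1 := fun h => he (Subtype.ext h)
  have heH : e ∈ H := hAH (hBA heB)
  have hzp : IsPGroup p (Subgroup.zpowers e) :=
    hAp.to_le ((Subgroup.zpowers_le).mpr (hBA heB))
  have hzne : Subgroup.zpowers e ≠ ⊥ := by
    intro hbot
    have : e ∈ Subgroup.zpowers e := Subgroup.mem_zpowers e
    rw [hbot, Subgroup.mem_bot] at this
    exact he1 this
  have hNz := se_normalizer_le hse hzp hzne ((Subgroup.zpowers_le).mpr heH)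
  refine inf_le_right.trans ?_
  refine le_trans ?_ hNz
  refine le_trans ?_ (Subgroup.centralizer_le_normalizer _)
  apply Subgroup.centralizer_le
  intro w hw
  obtain ⟨i, rfl⟩ := Subgroup.mem_zpowers_iff.mp hw
  exact B.zpow_mem heB i

/-- In a `p`-solvable group with a classically strongly `p`-embedded subgroup `H`, commuting
elements of order `p` of a Sylow subgroup inside `H` generate the same subgroup. -/
theorem se_psolvable_rank_one {G : Type*} [Group G] [Finite G] (p : ℕ) [Fact p.Prime]
    (H : Subgroup G) (hH : H ≠ ⊤) (hpH : p ∣ Nat.card H)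
    (hse : ∀ g : G, g ∉ H → ¬ p ∣ Nat.card ↥(H ⊓ H.map (MulAut.conj g).toMonoidHom))
    (hsol : Cfsg.IsPSolvable p G) (S : Sylow p G) (hSH : (S : Subgroup G) ≤ H)
    (x z : G) (hxS : x ∈ (S : Subgroup G)) (hzS : z ∈ (S : Subgroup G))
    (hxo : orderOf x = p) (hzo : orderOf z = p) (hcomm : x * z = z * x) :
    x ∈ Subgroup.zpowers z := by
  have hp : p.Prime := Fact.out
  by_contra hxz
  set A := Subgroup.closure ({x, z} : Set G) with hAdef
  have hxA : x ∈ A := Subgroup.subset_closure (by simp)
  have hzA : z ∈ A := Subgroup.subset_closure (by simp)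
  have hAS : A ≤ S := by
    rw [hAdef, Subgroup.closure_le]
    rintro a (rfl | rfl)
    · exact hxS
    · exact hzS
  have hAcomm : IsMulCommutative A := by
    apply Subgroup.isMulCommutative_closure
    rintro a (rfl | rfl) b (rfl | rfl)
    · rfl
    · exact hcomm
    · exact hcomm.symm
    · rfl
  have hAexp : ∀ a ∈ A, a ^ p = 1 := by
    intro a ha
    induction ha using Subgroup.closure_induction with
    | mem a ha =>
      rcases ha with rfl | rfl
      · rw [← hxo]; exact pow_orderOf_eq_one _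
      · rw [← hzo]; exact pow_orderOf_eq_one _
    | one => exact one_pow _
    | mul a b ha hb iha ihb =>
      have hc : Commute a b := by
        have := mul_comm' (⟨a, ha⟩ : A) ⟨b, hb⟩
        exact congrArg Subtype.val this
      rw [hc.mul_pow, iha, ihb, one_mul]
    | inv a ha iha => rw [inv_pow, iha, inv_one]
  have hAel : Cfsg.IsElementaryAbelian p A := ⟨hAcomm, hAexp⟩
  have hA2 : p ^ 2 ≤ Nat.card A := by
    obtain ⟨k, hk⟩ := IsPGroup.iff_card.mp (S.isPGroup'.to_le hAS)
    have hzz : Subgroup.zpowers z ≤ A := (Subgroup.zpowers_le).mpr hzA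
    have hlt : p < Nat.card A := by
      by_contra hle
      push Not at hle
      have heq : Subgroup.zpowers z = A := by
        apply Subgroup.eq_of_le_of_card_ge hzz
        rw [Nat.card_zpowers, hzo]; exact hle
      exact hxz (by rw [heq]; exact hxA)
    rw [hk] at hlt ⊢
    apply Nat.pow_le_pow_right hp.pos
    by_contra hk2
    push Not at hk2
    have : p ^ k ≤ p ^ 1 := Nat.pow_le_pow_right hp.pos (by omega)
    rw [pow_one] at this
    omega
  -- the `p`-solvable series
  obtain ⟨n, Hc, h0, hlast, hmono, hnorm, hfac⟩ := hsol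
  have hex : ∃ i : Fin n, ¬ p ∣ Nat.card (Hc i.castSucc) ∧ p ∣ Nat.card (Hc i.succ) := by
    by_contra hcon
    push Not at hcon
    have hall : ∀ j : Fin (n + 1), ¬ p ∣ Nat.card (Hc j) := by
      intro j
      induction j using Fin.induction with
      | zero =>
        rw [h0, Subgroup.card_bot]
        exact hp.not_dvd_one
      | succ i ih => exact hcon i ih
    apply hall (Fin.last n)
    rw [hlast, Subgroup.card_top]
    exact hpH.trans (Subgroup.card_subgroup_dvd_card H)
  obtain ⟨i, hK, hL⟩ := hex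
  set K := Hc i.castSucc with hKdef
  set L := Hc i.succ with hLdef
  have hKn : K.Normal := hnorm _
  have hLn : L.Normal := hnorm _
  have hKL : K ≤ L := hmono (Fin.castSucc_lt_succ).le
  have hrel : ∃ m : ℕ, K.relIndex L = p ^ m := by
    rcases hfac i with h | h
    · exact h
    · exfalso
      have h1 := Subgroup.relIndex_mul_relIndex ⊥ K L bot_le hKL
      rw [Subgroup.relIndex_bot_left, Subgroup.relIndex_bot_left] at h1
      rw [← h1] at hL
      rcases (Nat.Prime.dvd_mul hp).mp hL with h2 | h2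
      · exact hK h2
      · exact hp.one_lt.ne' (Nat.Coprime.eq_one_of_dvd h.symm h2)
  obtain ⟨m, hm⟩ := hrel
  -- `K ≤ H`
  have hKH : K ≤ H := se_pprime_le_of_rank_two p H hse A (hAS.trans hSH) hAel hA2 K hK
    (by rw [Subgroup.normalizer_eq_top]; exact le_top)
  -- `O^p(L) ≤ K`
  have hOp : Subgroup.closure {g : G | g ∈ L ∧ (orderOf g).Coprime p} ≤ K := by
    rw [Subgroup.closure_le]
    rintro g ⟨hgL, hgo⟩
    have hKLn : (K.subgroupOf L).Normal := inferInstance
    have h1 := Subgroup.pow_index_mem (K.subgroupOf L) (⟨g, hgL⟩ : ↥L)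
    have h2 : g ^ (p ^ m) ∈ K := by
      have h3 : (K.subgroupOf L).index = p ^ m := hm
      rw [h3] at h1
      exact h1
    obtain ⟨j, hj⟩ := exists_pow_eq_self_of_coprime
      (x := g) (n := p ^ m) (Nat.Coprime.pow_left m hgo.symm)
    rw [SetLike.mem_coe, ← hj]
    exact K.pow_mem h2 j
  have htop := se_sup_pprime_closure_eq_top p H hpH hse L hL
  apply hH
  rw [eq_top_iff, ← htop]
  exact sup_le le_rfl (hOp.trans hKH)

end Cfsg.Agent.H57
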