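import Mathlib
import Cfsg.Prelude.Def_FusionSystem
import Cfsg.Prelude.Def_LocalEven

/-!
# From control of strong fusion to normality in the fusion system of a group (helper57)
-/

set_option autoImplicit false

namespace Cfsg.Agent.H57.QSL

open Cfsg

/-- If `N_G(Q)` controls strong fusion in `P`, then `Q` is normal in the fusion system of `G`
on `P`. -/
theorem isNormal_of_control {G : Type*} [Group G] (P Q : Subgroup G) (hQP : Q ≤ P)
    (hctl : ∀ A : Subgroup G, A ≤ P → ∀ g : G, (∀ a ∈ A, g * a * g⁻¹ ∈ P) →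
      ∃ x ∈ Subgroup.normalizer (Q : Set G), ∀ a ∈ A, x * a * x⁻¹ = g * a * g⁻¹) :
    (groupFusionSystem P).IsNormal Q := by
  refine ⟨hQP, ?_⟩
  intro A φ hφ
  obtain ⟨hAP, hφP, g, hg⟩ := hφ
  obtain ⟨x, hx, hxa⟩ := hctl A hAP g (fun a ha => by
    have h1 := hφP ⟨a, ha⟩
    rwa [hg] at h1)
  have hle : A ⊔ Q ≤ P.comap (MulAut.conj x).toMonoidHom := by
    refine sup_le ?_ ?_
    · intro a ha
      rw [Subgroup.mem_comap]
      show x * a * x⁻¹ ∈ P
      rw [hxa a ha]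
      have h1 := hφP ⟨a, ha⟩
      rwa [hg] at h1
    · intro q hq
      rw [Subgroup.mem_comap]
      show x * q * x⁻¹ ∈ P
      exact hQP ((Subgroup.mem_normalizer_iff.mp hx q).mp hq)
  refine ⟨conjHom (A ⊔ Q) x, ⟨sup_le hAP hQP, fun y => hle y.2, x, fun y => rfl⟩, ?_, ?_⟩
  · intro y
    show x * (y : G) * x⁻¹ = φ y
    rw [hxa _ y.2, hg]
  · ext z
    constructor
    · rintro ⟨y, hy, rfl⟩
      exact (Subgroup.mem_normalizer_iff.mp hx _).mp (Subgroup.mem_subgroupOf.mp hy)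
    · intro hz
      have hz' : x⁻¹ * z * x ∈ Q := by
        have h1 := (Subgroup.mem_normalizer_iff.mp (inv_mem hx) z).mp hz
        simpa using h1
      refine ⟨⟨x⁻¹ * z * x, (le_sup_right : Q ≤ A ⊔ Q) hz'⟩, Subgroup.mem_subgroupOf.mpr hz', ?_⟩
      show x * (x⁻¹ * z * x) * x⁻¹ = z
      group

end Cfsg.Agent.H57.QSL
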