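import Mathlib

set_option autoImplicit false

namespace Cfsg.Agent.H57

open Matrix in
theorem sl2_noncomm {F : Type*} [Field F] :
    ∃ x y : Matrix.SpecialLinearGroup (Fin 2) F, x * y ≠ y * x := by
  refine ⟨⟨!![1,1;0,1], by simp [Matrix.det_fin_two]⟩, ⟨!![1,0;1,1], by simp [Matrix.det_fin_two]⟩, ?_⟩
  intro h
  have h0 : ((!![1,1;0,1] : Matrix (Fin 2) (Fin 2) F) * (!![1,0;1,1] : Matrix (Fin 2) (Fin 2) F))
      = ((!![1,0;1,1] : Matrix (Fin 2) (Fin 2) F) * (!![1,1;0,1] : Matrix (Fin 2) (Fin 2) F)) :=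
    congrArg Subtype.val h
  have h1 := congrFun (congrFun h0 0) 0
  simp [Matrix.mul_apply, Fin.sum_univ_two] at h1

open Matrix in
theorem sl2_central_inv {F : Type*} [Field F] (h2 : (2 : F) ≠ 0) :
    ∃ s : Matrix.SpecialLinearGroup (Fin 2) F, s ≠ 1 ∧ s * s = 1 ∧ ∀ g, s * g = g * s := by
  refine ⟨⟨!![-1,0;0,-1], by simp [Matrix.det_fin_two]⟩, ?_, ?_, ?_⟩
  · intro h
    have h0 : (!![-1,0;0,-1] : Matrix (Fin 2) (Fin 2) F) = (1 : Matrix (Fin 2) (Fin 2) F) :=
      congrArg Subtype.val h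
    have h1 := congrFun (congrFun h0 0) 0
    simp at h1
    apply h2
    have : (2 : F) = 1 - (-1) := by ring
    rw [this, h1]; ring
  · apply Subtype.ext
    show (!![-1,0;0,-1] : Matrix (Fin 2) (Fin 2) F) * !![-1,0;0,-1] = 1
    ext i j
    fin_cases i <;> fin_cases j <;> simp [Matrix.mul_apply, Fin.sum_univ_two]
  · intro g
    apply Subtype.ext
    show (!![-1,0;0,-1] : Matrix (Fin 2) (Fin 2) F) * g.1 = g.1 * !![-1,0;0,-1]
    ext i j
    fin_cases i <;> fin_cases j <;> simp [Matrix.mul_apply, Fin.sum_univ_two]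

/-- In a finite field of odd cardinality, `2 ≠ 0`. -/
theorem two_ne_zero_of_card_prime {F : Type*} [Field F] [Fintype F] {p : ℕ} (hpp : p.Prime)
    (hp : p ≠ 2) (hF : Fintype.card F = p) : (2 : F) ≠ 0 := by
  intro h
  have h1 : addOrderOf (1 : F) ∣ 2 := by
    apply addOrderOf_dvd_of_nsmul_eq_zero
    rw [nsmul_eq_mul, mul_one]; exact_mod_cast h
  have h2 : addOrderOf (1 : F) ∣ p := by
    have := addOrderOf_dvd_card (x := (1 : F))
    rwa [hF] at this
  have h3 : addOrderOf (1 : F) ≠ 1 := by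
    intro h'
    rw [AddMonoid.addOrderOf_eq_one_iff] at h'
    exact one_ne_zero h'
  have h4 : addOrderOf (1 : F) = 2 := by
    rcases (Nat.dvd_prime Nat.prime_two).1 h1 with h' | h'
    · exact absurd h' h3
    · exact h'
  rw [h4] at h2
  exact hp ((Nat.prime_dvd_prime_iff_eq Nat.prime_two hpp).1 h2).symm

/-- Commutators act trivially on a cyclic normal subgroup. -/
theorem commutator_comm_of_cyclic_normal {N : Type*} [Group N] (K : Subgroup N) [K.Normal]
    [IsCyclic K] (g h : N) {k : N} (hk : k ∈ K) :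
    (g * h * g⁻¹ * h⁻¹) * k = k * (g * h * g⁻¹ * h⁻¹) := by
  have hcomm : ∀ x y : MulAut K, x * y = y * x := by
    intro x y
    apply (IsCyclic.mulAutMulEquiv K).injective
    rw [map_mul, map_mul, mul_comm]
  have h1 : MulAut.conjNormal (H := K) (g * h * g⁻¹ * h⁻¹) = 1 := by
    rw [map_mul, map_mul, map_mul, map_inv, map_inv]
    rw [hcomm (MulAut.conjNormal g) (MulAut.conjNormal h), mul_assoc _ _ (MulAut.conjNormal g)⁻¹,
      mul_inv_cancel, mul_one, mul_inv_cancel]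
  have h2 := congrArg (fun f : MulAut K => ((f ⟨k, hk⟩ : K) : N)) h1
  simp only [MulAut.conjNormal_apply, MulAut.one_apply] at h2
  calc (g * h * g⁻¹ * h⁻¹) * k
      = ((g * h * g⁻¹ * h⁻¹) * k * (g * h * g⁻¹ * h⁻¹)⁻¹) * (g * h * g⁻¹ * h⁻¹) := by group
    _ = k * (g * h * g⁻¹ * h⁻¹) := by rw [h2]

/-- If an involution `t` inverts the normal abelian subgroup `A` of odd exponent, and `t` is
central modulo `A`, then `C(t)` is a complement to `A`. -/
theorem split_of_inverting_involution {N : Type*} [Group N] (A : Subgroup N) [A.Normal]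
    (k : ℕ) (hApow : ∀ a ∈ A, a ^ (2 * k + 1) = 1) (t : N)
    (htc : ∀ g : N, g * t * g⁻¹ * t⁻¹ ∈ A) (hinv : ∀ a ∈ A, t * a * t⁻¹ = a⁻¹) :
    A ⊓ Subgroup.centralizer {t} = ⊥ ∧ A ⊔ Subgroup.centralizer {t} = ⊤ := by
  constructor
  · rw [eq_bot_iff]
    intro a ha
    rw [Subgroup.mem_inf, Subgroup.mem_centralizer_iff] at ha
    obtain ⟨haA, hac⟩ := ha
    have h1 : t * a = a * t := hac t rfl
    have h2 : a = a⁻¹ := by
      rw [← hinv a haA, h1]; group
    have h3 : a * a = 1 := by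
      nth_rewrite 2 [h2]; group
    have h4 := hApow a haA
    rw [pow_succ, pow_mul, pow_two, h3, one_pow, one_mul] at h4
    rw [Subgroup.mem_bot]; exact h4
  · rw [eq_top_iff]
    intro g _
    set a₀ := g * t * g⁻¹ * t⁻¹ with ha₀
    have ha₀A : a₀ ∈ A := htc g
    set a := a₀ ^ (k + 1) with ha
    have haA : a ∈ A := A.pow_mem ha₀A _
    have haa : a * a = a₀ := by
      rw [ha, ← pow_add]
      have : k + 1 + (k + 1) = (2 * k + 1) + 1 := by ring
      rw [this, pow_succ, hApow a₀ ha₀A, one_mul]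
    have hg : g = a * (a⁻¹ * g) := by group
    rw [hg]
    apply Subgroup.mul_mem_sup haA
    rw [Subgroup.mem_centralizer_iff]
    intro x hx
    rw [Set.mem_singleton_iff] at hx
    subst hx
    have h1 : g * x = a₀ * x * g := by rw [ha₀]; group
    have h2 : x * a⁻¹ = a * x := by
      have := hinv a⁻¹ (A.inv_mem haA)
      rw [inv_inv] at this
      calc x * a⁻¹ = (x * a⁻¹ * x⁻¹) * x := by group
        _ = a * x := by rw [this]
    calc x * (a⁻¹ * g) = (x * a⁻¹) * g := by group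
      _ = a * x * g := by rw [h2]
      _ = a⁻¹ * (a * a) * x * g := by group
      _ = a⁻¹ * a₀ * x * g := by rw [haa]
      _ = a⁻¹ * (a₀ * x * g) := by group
      _ = a⁻¹ * (g * x) := by rw [h1]
      _ = a⁻¹ * g * x := by group

/-- A non-central-mod-`A`... : an involution `t ∉ A`, central modulo the self-centralizing
normal elementary abelian `A` of order `p²` (`p` odd), inverts `A` provided `N/A` is nonabelian. -/
theorem invert_of_selfcentralizing {N : Type*} [Group N] [Finite N] {p : ℕ} [Fact p.Prime]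
    (k : ℕ) (hpk : p = 2 * k + 1)
    (A : Subgroup N) [A.Normal] (hAc : ∀ a ∈ A, ∀ b ∈ A, a * b = b * a)
    (hAcard : Nat.card A = p ^ 2) (hApow : ∀ a ∈ A, a ^ p = 1)
    (hAself : Subgroup.centralizer (A : Set N) ≤ A)
    (t : N) (htt : t * t = 1) (htA : t ∉ A) (htc : ∀ g : N, g * t * g⁻¹ * t⁻¹ ∈ A)
    (hnc : ∃ g h : N, g * h * g⁻¹ * h⁻¹ ∉ A) :
    ∀ a ∈ A, t * a * t⁻¹ = a⁻¹ := by
  classical
  have hpp : p.Prime := Fact.out
  have hnA : A.Normal := inferInstance
  have htinv : t⁻¹ = t := inv_eq_of_mul_eq_one_left htt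
  have hconjA : ∀ a ∈ A, t * a * t⁻¹ ∈ A := fun a ha => hnA.conj_mem a ha t
  have hconj2 : ∀ a : N, t * (t * a * t⁻¹) * t⁻¹ = a := by
    intro a
    rw [htinv]
    calc t * (t * a * t) * t = (t * t) * a * (t * t) := by group
      _ = a := by rw [htt]; group
  have hsq1 : ∀ a ∈ A, a * a = 1 → a = 1 := by
    intro a ha haa
    have h4 := hApow a ha
    rw [hpk, pow_succ, pow_mul, pow_two, haa, one_pow, one_mul] at h4
    exact h4
  -- the two eigenspaces
  set Ap : Subgroup N := A ⊓ Subgroup.centralizer {t} with hAp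
  let Am : Subgroup N :=
    { carrier := {a | a ∈ A ∧ t * a * t⁻¹ = a⁻¹}
      one_mem' := ⟨A.one_mem, by group⟩
      mul_mem' := by
        rintro a b ⟨ha, ha'⟩ ⟨hb, hb'⟩
        refine ⟨A.mul_mem ha hb, ?_⟩
        calc t * (a * b) * t⁻¹ = (t * a * t⁻¹) * (t * b * t⁻¹) := by group
          _ = a⁻¹ * b⁻¹ := by rw [ha', hb']
          _ = (a * b)⁻¹ := by rw [mul_inv_rev]; exact hAc _ (A.inv_mem ha) _ (A.inv_mem hb)
      inv_mem' := by
        rintro a ⟨ha, ha'⟩
        refine ⟨A.inv_mem ha, ?_⟩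
        calc t * a⁻¹ * t⁻¹ = (t * a * t⁻¹)⁻¹ := by group
          _ = a⁻¹⁻¹ := by rw [ha'] }
  have hAmA : Am ≤ A := fun a ha => ha.1
  have hAm_mem : ∀ a : N, a ∈ Am ↔ (a ∈ A ∧ t * a * t⁻¹ = a⁻¹) := fun a => Iff.rfl
  have hAp_mem : ∀ a : N, a ∈ Ap ↔ (a ∈ A ∧ t * a = a * t) := by
    intro a
    rw [hAp, Subgroup.mem_inf, Subgroup.mem_centralizer_iff]
    constructor
    · rintro ⟨h1, h2⟩; exact ⟨h1, h2 t rfl⟩
    · rintro ⟨h1, h2⟩
      refine ⟨h1, ?_⟩
      intro x hx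
      rw [Set.mem_singleton_iff] at hx
      subst hx; exact h2
  -- t g = g a₁ t
  have htg : ∀ g : N, ∃ a₁ ∈ A, t * g = g * a₁ * t := by
    intro g
    refine ⟨g⁻¹ * t * g * t⁻¹, ?_, by group⟩
    have := htc g⁻¹
    rwa [inv_inv] at this
  haveI hApN : Ap.Normal := by
    constructor
    intro n hn g
    rw [hAp_mem] at hn ⊢
    obtain ⟨hnA', hnt⟩ := hn
    refine ⟨hnA.conj_mem n hnA' g, ?_⟩
    obtain ⟨a₁, ha₁, hg⟩ := htg g
    have hg' : a₁ * t * g⁻¹ = g⁻¹ * t := by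
      calc a₁ * t * g⁻¹ = g⁻¹ * (g * a₁ * t) * g⁻¹ := by group
        _ = g⁻¹ * (t * g) * g⁻¹ := by rw [hg]
        _ = g⁻¹ * t := by group
    calc t * (g * n * g⁻¹) = (t * g) * n * g⁻¹ := by group
      _ = g * a₁ * (t * n) * g⁻¹ := by rw [hg]; group
      _ = g * (a₁ * n) * t * g⁻¹ := by rw [hnt]; group
      _ = g * (n * a₁) * t * g⁻¹ := by rw [hAc a₁ ha₁ n hnA']
      _ = g * n * (a₁ * t * g⁻¹) := by group
      _ = g * n * (g⁻¹ * t) := by rw [hg']
      _ = g * n * g⁻¹ * t := by group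
  haveI hAmN : Am.Normal := by
    constructor
    intro n hn g
    rw [hAm_mem] at hn ⊢
    obtain ⟨hnA', hnt⟩ := hn
    refine ⟨hnA.conj_mem n hnA' g, ?_⟩
    obtain ⟨a₁, ha₁, hg⟩ := htg g
    calc t * (g * n * g⁻¹) * t⁻¹ = (t * g) * n * (t * g)⁻¹ := by group
      _ = g * (a₁ * (t * n * t⁻¹) * a₁⁻¹) * g⁻¹ := by rw [hg]; group
      _ = g * (a₁ * n⁻¹ * a₁⁻¹) * g⁻¹ := by rw [hnt]
      _ = g * (n⁻¹ * a₁ * a₁⁻¹) * g⁻¹ := by rw [hAc a₁ ha₁ n⁻¹ (A.inv_mem hnA')]
      _ = (g * n * g⁻¹)⁻¹ := by group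
  have hplus : ∀ a ∈ A, a * (t * a * t⁻¹) ∈ Ap := by
    intro a ha
    rw [hAp_mem]
    refine ⟨A.mul_mem ha (hconjA a ha), ?_⟩
    have hc := hAc a ha _ (hconjA a ha)
    have h2 : t * (t * a * t⁻¹) = a * t := by
      calc t * (t * a * t⁻¹) = (t * (t * a * t⁻¹) * t⁻¹) * t := by group
        _ = a * t := by rw [hconj2]
    calc t * (a * (t * a * t⁻¹)) = (t * a * t⁻¹) * (t * (t * a * t⁻¹)) := by group
      _ = (t * a * t⁻¹) * (a * t) := by rw [h2]
      _ = ((t * a * t⁻¹) * a) * t := by group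
      _ = (a * (t * a * t⁻¹)) * t := by rw [hc]
  have hminus : ∀ a ∈ A, a * (t * a * t⁻¹)⁻¹ ∈ Am := by
    intro a ha
    rw [hAm_mem]
    refine ⟨A.mul_mem ha (A.inv_mem (hconjA a ha)), ?_⟩
    calc t * (a * (t * a * t⁻¹)⁻¹) * t⁻¹ = (t * a * t⁻¹) * (t * (t * a * t⁻¹) * t⁻¹)⁻¹ := by group
      _ = (t * a * t⁻¹) * a⁻¹ := by rw [hconj2]
      _ = (a * (t * a * t⁻¹)⁻¹)⁻¹ := by group
  have hdvd : Nat.card Ap ∣ p ^ 2 := by
    rw [← hAcard]; exact Subgroup.card_dvd_of_le inf_le_left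
  obtain ⟨i, hi, hcard⟩ := (Nat.dvd_prime_pow hpp).1 hdvd
  have hi' : i = 0 ∨ i = 1 ∨ i = 2 := by omega
  rcases hi' with rfl | rfl | rfl
  · -- Ap trivial
    have hbot : Ap = ⊥ := Subgroup.eq_bot_of_card_eq Ap (by rw [hcard, pow_zero])
    intro a ha
    have h1 := hplus a ha
    rw [hbot, Subgroup.mem_bot] at h1
    exact eq_inv_of_mul_eq_one_right h1
  · -- Ap of order p: contradiction
    exfalso
    rw [pow_one] at hcard
    haveI : IsCyclic Ap := isCyclic_of_prime_card hcard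
    have hdvdm : Nat.card Am ∣ p ^ 2 := by
      rw [← hAcard]; exact Subgroup.card_dvd_of_le hAmA
    obtain ⟨j, hj, hcardm⟩ := (Nat.dvd_prime_pow hpp).1 hdvdm
    have hj2 : j ≠ 2 := by
      rintro rfl
      have hAmeq : Am = A := Subgroup.eq_of_le_of_card_ge hAmA (by rw [hcardm, hAcard])
      have hbot : Ap = ⊥ := by
        rw [eq_bot_iff]
        intro a ha
        rw [hAp_mem] at ha
        have h1 : a ∈ Am := by rw [hAmeq]; exact ha.1
        rw [hAm_mem] at h1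
        have h2 : a = a⁻¹ := by
          rw [← h1.2, ha.2]; group
        rw [Subgroup.mem_bot]
        apply hsq1 a ha.1
        nth_rewrite 2 [h2]; group
      rw [hbot, Subgroup.card_bot] at hcard
      exact hpp.one_lt.ne hcard
    haveI : IsCyclic Am := by
      apply isCyclic_of_card_dvd_prime (p := p)
      rw [hcardm]
      have : j ≤ 1 := by omega
      calc p ^ j ∣ p ^ 1 := pow_dvd_pow p this
        _ = p := pow_one p
    obtain ⟨g, h, hgh⟩ := hnc
    apply hgh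
    apply hAself
    rw [Subgroup.mem_centralizer_iff]
    intro a ha
    have e1 := commutator_comm_of_cyclic_normal Ap g h (hplus a ha)
    have e2 := commutator_comm_of_cyclic_normal Am g h (hminus a ha)
    have haa : a * a = (a * (t * a * t⁻¹)) * (a * (t * a * t⁻¹)⁻¹) := by
      have hc := hAc a ha _ (hconjA a ha)
      calc a * a = a * (a * (t * a * t⁻¹)) * (t * a * t⁻¹)⁻¹ := by group
        _ = a * ((t * a * t⁻¹) * a) * (t * a * t⁻¹)⁻¹ := by rw [hc]
        _ = (a * (t * a * t⁻¹)) * (a * (t * a * t⁻¹)⁻¹) := by group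
    have e3 : Commute (g * h * g⁻¹ * h⁻¹) (a * a) := by
      rw [haa]
      exact Commute.mul_right e1 e2
    have e4 : (a * a) ^ (k + 1) = a := by
      rw [← pow_two, ← pow_mul]
      have : 2 * (k + 1) = p + 1 := by omega
      rw [this, pow_succ, hApow a ha, one_mul]
    have e5 := e3.pow_right (k + 1)
    rw [e4] at e5
    exact e5.eq.symm
  · -- Ap = A: t centralizes A
    exfalso
    have hApeq : Ap = A := Subgroup.eq_of_le_of_card_ge inf_le_left (by rw [hcard, hAcard])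
    apply htA
    apply hAself
    rw [Subgroup.mem_centralizer_iff]
    intro a ha
    have h1 : a ∈ Ap := by rw [hApeq]; exact ha
    rw [hAp_mem] at h1
    exact h1.2.symm

end Cfsg.Agent.H57
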