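import Mathlib

set_option autoImplicit false
set_option linter.style.haveILetI false
set_option linter.unusedSectionVars false
set_option linter.unusedVariables false

/-!
# Piece S3641-Q (helper57, for helper21's S3641 project)

Sylow numbers of a quotient, exact form: for a surjective homomorphism `φ : G →* H` with kernel
`K` and a Sylow `r`-subgroup `R` of `G`: `n_r(G) = n_r(H) * |K : N_K(R)|`.
-/

namespace Cfsg.Agent.H57.SN

/-- Second isomorphism theorem as a count: `|N K : N| = |K : N ∩ K|` for `K` normal. -/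
theorem relIndex_sup_of_normal {G : Type*} [Group G] [Finite G] (N K : Subgroup G) [K.Normal] :
    N.relIndex (N ⊔ K) = N.relIndex K := by
  have h1 : Nat.card N * N.relIndex (N ⊔ K) = Nat.card (N ⊔ K : Subgroup G) := by
    have := Subgroup.relIndex_mul_relIndex (⊥ : Subgroup G) N (N ⊔ K) bot_le le_sup_left
    rwa [Subgroup.relIndex_bot_left, Subgroup.relIndex_bot_left] at this
  have h2 : Nat.card K * K.relIndex N = Nat.card (N ⊔ K : Subgroup G) := by
    have := Subgroup.relIndex_mul_relIndex (⊥ : Subgroup G) K (N ⊔ K) bot_le le_sup_right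
    rwa [Subgroup.relIndex_bot_left, Subgroup.relIndex_bot_left,
      Subgroup.relIndex_sup_right] at this
  have h3 : Nat.card (N ⊓ K : Subgroup G) * K.relIndex N = Nat.card N := by
    have := Subgroup.relIndex_mul_relIndex (⊥ : Subgroup G) (N ⊓ K) N bot_le inf_le_left
    rwa [Subgroup.relIndex_bot_left, Subgroup.relIndex_bot_left,
      Subgroup.inf_relIndex_left] at this
  have h4 : Nat.card (N ⊓ K : Subgroup G) * N.relIndex K = Nat.card K := by
    have := Subgroup.relIndex_mul_relIndex (⊥ : Subgroup G) (N ⊓ K) K bot_le inf_le_right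
    rwa [Subgroup.relIndex_bot_left, Subgroup.relIndex_bot_left,
      Subgroup.inf_relIndex_right] at this
  have hpos : 0 < Nat.card (N ⊓ K : Subgroup G) := Nat.card_pos
  have hposN : 0 < Nat.card N := Nat.card_pos
  -- |N| * X = |K| * K.relIndex N ; multiply by |N ⊓ K|
  have h5 : Nat.card N * (Nat.card (N ⊓ K : Subgroup G) * N.relIndex (N ⊔ K)) =
      Nat.card N * (Nat.card (N ⊓ K : Subgroup G) * N.relIndex K) := by
    calc Nat.card N * (Nat.card (N ⊓ K : Subgroup G) * N.relIndex (N ⊔ K))
        = Nat.card (N ⊓ K : Subgroup G) * (Nat.card N * N.relIndex (N ⊔ K)) := by ring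
      _ = Nat.card (N ⊓ K : Subgroup G) * (Nat.card K * K.relIndex N) := by rw [h1, h2]
      _ = Nat.card K * (Nat.card (N ⊓ K : Subgroup G) * K.relIndex N) := by ring
      _ = Nat.card K * Nat.card N := by rw [h3]
      _ = Nat.card N * (Nat.card (N ⊓ K : Subgroup G) * N.relIndex K) := by rw [h4]; ring
  have h6 := Nat.eq_of_mul_eq_mul_left hposN h5
  exact Nat.eq_of_mul_eq_mul_left hpos h6

theorem card_sylow_eq_mul_relIndex {G H : Type*} [Group G] [Finite G] [Group H] (φ : G →* H)
    (hφ : Function.Surjective φ) (r : ℕ) [Fact r.Prime] (R : Sylow r G) :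
    Nat.card (Sylow r G) = Nat.card (Sylow r H) *
      (Subgroup.normalizer ((R : Subgroup G) : Set G)).relIndex φ.ker := by
  classical
  haveI : Finite H := Finite.of_surjective φ hφ
  have e1 : Nat.card (Sylow r G) =
      (Subgroup.normalizer ((R : Subgroup G) : Set G)).index :=
    Sylow.card_eq_index_normalizer _
  have e2 : Nat.card (Sylow r H) = (Subgroup.normalizer
      (((R.mapSurjective hφ : Sylow r H) : Subgroup H) : Set H)).index :=
    Sylow.card_eq_index_normalizer _
  have hcoe : ∀ z : H, z ∈ ((R.mapSurjective hφ : Sylow r H) : Subgroup H) ↔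
      ∃ x ∈ (R : Subgroup G), φ x = z := by
    intro z
    rw [Sylow.coe_mapSurjective, Subgroup.mem_map]
  have hRN : (R : Subgroup G) ≤ Subgroup.normalizer ((R : Subgroup G) : Set G) :=
    Subgroup.le_normalizer
  -- the preimage of the normalizer of the image
  have hC : (Subgroup.normalizer
      (((R.mapSurjective hφ : Sylow r H) : Subgroup H) : Set H)).comap φ =
      Subgroup.normalizer ((R : Subgroup G) : Set G) ⊔ φ.ker := by
    apply le_antisymm
    · intro g hg
      rw [Subgroup.mem_comap] at hg
      have hg' := Subgroup.mem_normalizer_iff.mp hg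
      -- `g • R ≤ R ⊔ K`
      have hJ1 : (R : Subgroup G) ≤ (R : Subgroup G) ⊔ φ.ker := le_sup_left
      have hJ2 : ((g • R : Sylow r G) : Subgroup G) ≤ (R : Subgroup G) ⊔ φ.ker := by
        intro x hx
        rw [Sylow.coe_subgroup_smul, Subgroup.mem_pointwise_smul_iff_inv_smul_mem] at hx
        have hx1 : g⁻¹ * x * g ∈ (R : Subgroup G) := by simpa [MulAut.smul_def] using hx
        have hx2 : φ x ∈ ((R.mapSurjective hφ : Sylow r H) : Subgroup H) := by
          have h0 : φ (g⁻¹ * x * g) ∈ ((R.mapSurjective hφ : Sylow r H) : Subgroup H) :=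
            (hcoe _).mpr ⟨_, hx1, rfl⟩
          have h1 := (hg' (φ (g⁻¹ * x * g))).mp h0
          have h2 : φ g * φ (g⁻¹ * x * g) * (φ g)⁻¹ = φ x := by
            rw [← map_inv, ← map_mul, ← map_mul]
            congr 1
            group
          rwa [h2] at h1
        obtain ⟨y, hy, hyx⟩ := (hcoe _).mp hx2
        have hk : y⁻¹ * x ∈ φ.ker := by
          rw [MonoidHom.mem_ker, map_mul, map_inv, hyx, inv_mul_cancel]
        have hxe : x = y * (y⁻¹ * x) := by group
        rw [hxe]
        exact mul_mem (hJ1 hy) (Subgroup.mem_sup_right hk)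
      obtain ⟨j, hj⟩ := MulAction.exists_smul_eq ↥((R : Subgroup G) ⊔ φ.ker)
        (R.subtype hJ1) ((g • R : Sylow r G).subtype hJ2)
      rw [Sylow.smul_subtype] at hj
      have hj' : j • R = g • R := Sylow.subtype_injective hj
      have hj'' : ((j : G)) • R = g • R := hj'
      have hn : (j : G)⁻¹ * g ∈ Subgroup.normalizer ((R : Subgroup G) : Set G) := by
        have h0 : ((j : G)⁻¹ * g) • R = R := by
          rw [mul_smul, ← hj'', inv_smul_smul]
        exact Sylow.smul_eq_iff_mem_normalizer.mp h0
      have hge : g = (j : G) * ((j : G)⁻¹ * g) := by group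
      rw [hge]
      have hjm : (j : G) ∈ Subgroup.normalizer ((R : Subgroup G) : Set G) ⊔ φ.ker :=
        (sup_le_sup_right hRN _) j.2
      exact mul_mem hjm (Subgroup.mem_sup_left hn)
    · apply sup_le
      · intro n hn
        rw [Subgroup.mem_comap, Subgroup.mem_normalizer_iff]
        intro y
        have hn' := Subgroup.mem_normalizer_iff.mp hn
        change y ∈ ((R.mapSurjective hφ : Sylow r H) : Subgroup H) ↔
          φ n * y * (φ n)⁻¹ ∈ ((R.mapSurjective hφ : Sylow r H) : Subgroup H)
        rw [hcoe, hcoe]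
        constructor
        · rintro ⟨x, hx, rfl⟩
          exact ⟨n * x * n⁻¹, (hn' x).mp hx, by simp⟩
        · rintro ⟨x, hx, hxe⟩
          refine ⟨n⁻¹ * x * n, ?_, ?_⟩
          · apply (hn' (n⁻¹ * x * n)).mpr
            have h1 : n * (n⁻¹ * x * n) * n⁻¹ = x := by group
            rw [h1]; exact hx
          · rw [map_mul, map_mul, hxe, map_inv]; group
      · intro k hk
        rw [Subgroup.mem_comap, (MonoidHom.mem_ker).mp hk]
        exact one_mem _
  have e3 := Subgroup.index_comap_of_surjective (Subgroup.normalizer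
      (((R.mapSurjective hφ : Sylow r H) : Subgroup H) : Set H)) hφ
  rw [e1, e2, ← e3, hC, ← relIndex_sup_of_normal, mul_comm]
  exact (Subgroup.relIndex_mul_index le_sup_left).symm

end Cfsg.Agent.H57.SN

example : ∀ {G H : Type*} [Group G] [Finite G] [Group H] (φ : G →* H)
    (hφ : Function.Surjective φ) (r : ℕ) [Fact r.Prime] (R : Sylow r G),
    Nat.card (Sylow r G) = Nat.card (Sylow r H) *
      (Subgroup.normalizer ((R : Subgroup G) : Set G)).relIndex φ.ker :=
  @Cfsg.Agent.H57.SN.card_sylow_eq_mul_relIndex
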